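import Cfsg.Agent.H76.FR.Glue
import Cfsg.Agent.H855.FR.Wr

/-!
# TEAM SR, second part (S4970), task FR-RED (helper76)

`cov_of_red` : if `closure {c} ⊔ P` preserves a proper nondegenerate subspace `U` or `{U, U^⊥}`, then the conclusion
`Cov B ε c P` follows from `Hyp m`, `m < dim V`.
-/

set_option autoImplicit false

universe u

namespace Cfsg.Agent.H76.FR

open Cfsg Cfsg.Agent.H955.FS Cfsg.Agent.H721.SR Cfsg.Agent.H721.FR Cfsg.Agent.H855.FR Module

variable {F V : Type u} [Field F] [AddCommGroup V] [Module F V]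

theorem zel_central (ε : F) (g : V ≃ₗ[F] V) : g * zel V ε = zel V ε * g := by
  unfold zel
  split_ifs
  · rw [mul_one, one_mul]
  · apply LinearEquiv.ext
    intro v
    show g (-v) = -(g v)
    rw [map_neg]

theorem zel_sq (ε : F) : zel V ε * zel V ε = 1 := by
  unfold zel
  split_ifs
  · rw [mul_one]
  · apply LinearEquiv.ext
    intro v
    show -(-v) = v
    rw [neg_neg]

/-- conjugation preserves `zel` -/
theorem zel_conj {W : Type u} [AddCommGroup W] [Module F W] (ε : F) (σ : V ≃ₗ[F] W) :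
    σ.symm ≪≫ₗ zel V ε ≪≫ₗ σ = zel W ε := by
  apply LinearEquiv.ext
  intro w
  rw [LinearEquiv.trans_apply, LinearEquiv.trans_apply]
  unfold zel
  split_ifs
  · show σ (σ.symm w) = w
    rw [LinearEquiv.apply_symm_apply]
  · show σ (-(σ.symm w)) = -w
    rw [map_neg, LinearEquiv.apply_symm_apply]

theorem finite_equiv [Finite F] [FiniteDimensional F V] : Finite (V ≃ₗ[F] V) := by
  have : Finite V := Module.finite_of_finite F
  exact Finite.of_injective (fun g : V ≃ₗ[F] V => (g : V → V)) DFunLike.coe_injective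

variable {B : V →ₗ[F] V →ₗ[F] F} {ε : F} {U : Submodule F V}

theorem ne_perp (hF : Fm B ε) (hU : NdOn B U) (h0 : U ≠ ⊥) : perp B U ≠ U := by
  intro h
  have h1 := disjoint_perp hF hU
  rw [h, disjoint_self] at h1
  exact h0 h1

theorem perp_ne_top (hF : Fm B ε) (hU : NdOn B U) (h0 : U ≠ ⊥) : perp B U ≠ ⊤ := by
  intro h
  have h1 := disjoint_perp hF hU
  rw [h, disjoint_top] at h1
  exact h0 h1

section

variable [Finite F] [FiniteDimensional F V]

/-- **the stabiliser of a nondegenerate subspace** -/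
theorem fszs_stab (hF : Fm B ε) (hU : NdOn B U) (h1 : FSZs (Isom (res B U)) (zel U ε))
    (h2 : FSZs (Isom (res B (perp B U))) (zel (perp B U) ε)) : FSZs (stab B U) (zel V ε) := by
  obtain ⟨m1, h1⟩ := h1
  obtain ⟨m2, h2⟩ := h2
  have f1 : Finite (U ≃ₗ[F] U) := finite_equiv
  have f2 : Finite (perp B U ≃ₗ[F] perp B U) := finite_equiv
  have h := FSZ.prod (fun g => Subtype.ext (zel_central ε g.1)) (Subtype.ext (zel_sq ε))
    (fun g => Subtype.ext (zel_central ε g.1)) (Subtype.ext (zel_sq ε)) h1 h2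
  have h3 := FSZ.of_mulEquiv (glueEquiv hF hU) h
  have e : ((glueEquiv hF hU (⟨zel U ε, m1⟩, ⟨zel (perp B U) ε, m2⟩) : ↥(stab B U)) : V ≃ₗ[F] V) = zel V ε := by
    rw [glueEquiv_coe, glue_zel]
  refine ⟨by rw [← e]; exact Subtype.coe_prop _, ?_⟩
  have e' : glueEquiv hF hU (⟨zel U ε, m1⟩, ⟨zel (perp B U) ε, m2⟩) =
      ⟨zel V ε, by rw [← e]; exact Subtype.coe_prop _⟩ := Subtype.ext e
  rwa [e'] at h3

end

/-! ### exchanging `U` and `U^⊥` -/

section Swap

variable {U U' : Submodule F V} (hc : IsCompl U U') (σ : U ≃ₗ[F] U')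

/-- the involution exchanging `U` and `U'` -/
noncomputable def swap : V ≃ₗ[F] V :=
  (Submodule.prodEquivOfIsCompl U U' hc).symm ≪≫ₗ (σ.prodCongr σ.symm) ≪≫ₗ
    Submodule.prodEquivOfIsCompl U' U hc.symm

theorem swap_apply (x : U) (y : U') : swap hc σ ((x : V) + y) = σ x + σ.symm y := by
  have h : (Submodule.prodEquivOfIsCompl U U' hc).symm ((x : V) + y) = (x, y) := by
    rw [LinearEquiv.symm_apply_eq, Submodule.coe_prodEquivOfIsCompl']
  rw [swap, LinearEquiv.trans_apply, LinearEquiv.trans_apply, h, LinearEquiv.prodCongr_apply,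
    Submodule.coe_prodEquivOfIsCompl']

theorem swap_left (x : U) : swap hc σ x = σ x := by
  have := swap_apply hc σ x 0
  simpa using this

theorem swap_right (y : U') : swap hc σ y = σ.symm y := by
  have := swap_apply hc σ 0 y
  simpa using this

theorem swap_sq : swap hc σ * swap hc σ = 1 := by
  apply ext_of hc
  · intro x
    show swap hc σ (swap hc σ x) = x
    rw [swap_left, swap_right, LinearEquiv.symm_apply_apply]
  · intro x
    show swap hc σ (swap hc σ x) = x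
    rw [swap_right, swap_left, LinearEquiv.apply_symm_apply]

theorem swap_map : U.map (swap hc σ : V →ₗ[F] V) = U' := by
  ext v
  constructor
  · rintro ⟨x, hx, rfl⟩
    show swap hc σ x ∈ U'
    rw [swap_left hc σ ⟨x, hx⟩]
    exact (σ _).2
  · intro hv
    refine ⟨σ.symm ⟨v, hv⟩, (σ.symm _).2, ?_⟩
    show swap hc σ (σ.symm ⟨v, hv⟩ : U) = v
    rw [swap_left, LinearEquiv.apply_symm_apply]

/-- conjugation by the exchange -/
theorem swap_glue (a b : U ≃ₗ[F] U) :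
    swap hc σ * glue hc a (σ.symm ≪≫ₗ b ≪≫ₗ σ) = glue hc b (σ.symm ≪≫ₗ a ≪≫ₗ σ) * swap hc σ := by
  apply ext_of hc
  · intro x
    show swap hc σ (glue hc a (σ.symm ≪≫ₗ b ≪≫ₗ σ) x) = glue hc b (σ.symm ≪≫ₗ a ≪≫ₗ σ) (swap hc σ x)
    rw [glue_left, swap_left, swap_left, glue_right, LinearEquiv.trans_apply, LinearEquiv.trans_apply,
      LinearEquiv.symm_apply_apply]
  · intro x
    show swap hc σ (glue hc a (σ.symm ≪≫ₗ b ≪≫ₗ σ) x) = glue hc b (σ.symm ≪≫ₗ a ≪≫ₗ σ) (swap hc σ x)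
    rw [glue_right, swap_right, swap_right, glue_left, LinearEquiv.trans_apply, LinearEquiv.trans_apply,
      LinearEquiv.symm_apply_apply]

end Swap

section

variable [FiniteDimensional F V]

theorem swap_mem (hF : Fm B ε) (hU : NdOn B U) {σ : U ≃ₗ[F] perp B U} (hσ : ∀ x y : U, B (σ x) (σ y) = B x y) :
    swap (isCompl_perp hF hU) σ ∈ Isom B := by
  intro x y
  obtain ⟨x1, x2, rfl⟩ := exists_add hF hU x
  obtain ⟨y1, y2, rfl⟩ := exists_add hF hU y
  rw [swap_apply, swap_apply]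
  simp only [map_add, LinearMap.add_apply]
  have e1 := hσ x1 y1
  have e2 : B (σ.symm x2) (σ.symm y2) = B x2 y2 := by
    rw [← hσ, LinearEquiv.apply_symm_apply, LinearEquiv.apply_symm_apply]
  have e3 : B (σ.symm x2) (σ y1) = 0 := (σ y1).2 _ (σ.symm x2).2
  have e4 : B (σ x1) (σ.symm y2) = 0 := symm_zero hF ((σ x1).2 _ (σ.symm y2).2)
  have e5 : B x1 y2 = 0 := y2.2 _ x1.2
  have e6 : B x2 y1 = 0 := symm_zero hF (x2.2 _ y1.2)
  rw [e1, e2, e3, e4, e5, e6]

/-- the stabiliser of `{U, U^⊥}` -/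
def stab2 (hF : Fm B ε) (hU : NdOn B U) : Subgroup (V ≃ₗ[F] V) where
  carrier := {g | g ∈ Isom B ∧ (U.map (g : V →ₗ[F] V) = U ∨ U.map (g : V →ₗ[F] V) = perp B U)}
  mul_mem' := fun {a b} ha hb => ⟨mul_mem ha.1 hb.1, by
    have e : ((a * b : V ≃ₗ[F] V) : V →ₗ[F] V) = (a : V →ₗ[F] V) ∘ₗ (b : V →ₗ[F] V) := rfl
    rw [e, Submodule.map_comp]
    rcases hb.2 with h | h <;> rw [h]
    · exact ha.2
    · rw [map_perp ha.1]
      rcases ha.2 with h' | h' <;> rw [h']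
      · exact Or.inr rfl
      · exact Or.inl (perp_perp hF hU)⟩
  one_mem' := ⟨one_mem _, by
    have e : ((1 : V ≃ₗ[F] V) : V →ₗ[F] V) = LinearMap.id := rfl
    rw [e, Submodule.map_id]
    exact Or.inl rfl⟩
  inv_mem' := fun {a} ha => ⟨inv_mem ha.1, by
    have e : ((a⁻¹ : V ≃ₗ[F] V) : V →ₗ[F] V) ∘ₗ (a : V →ₗ[F] V) = LinearMap.id := by
      ext x
      exact LinearEquiv.symm_apply_apply a x
    rcases ha.2 with h | h
    · left
      conv_lhs => rw [← h]
      rw [← Submodule.map_comp, e, Submodule.map_id]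
    · right
      have h1 : (perp B U).map (a : V →ₗ[F] V) = U := by rw [map_perp ha.1, h, perp_perp hF hU]
      conv_lhs => rw [← h1]
      rw [← Submodule.map_comp, e, Submodule.map_id]⟩

theorem mem_stab2 (hF : Fm B ε) (hU : NdOn B U) {g : V ≃ₗ[F] V} : g ∈ stab2 hF hU ↔
    g ∈ Isom B ∧ (U.map (g : V →ₗ[F] V) = U ∨ U.map (g : V →ₗ[F] V) = perp B U) := Iff.rfl

theorem stab_le (hF : Fm B ε) (hU : NdOn B U) : stab B U ≤ stab2 hF hU := fun _ hg => ⟨hg.1, Or.inl hg.2⟩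

/-- the isometry groups of isometric spaces -/
noncomputable def conjIsom {W W' : Type u} [AddCommGroup W] [Module F W] [AddCommGroup W'] [Module F W']
    {C : W →ₗ[F] W →ₗ[F] F} {C' : W' →ₗ[F] W' →ₗ[F] F} (σ : W ≃ₗ[F] W') (hσ : ∀ x y, C' (σ x) (σ y) = C x y) :
    ↥(Isom C) ≃* ↥(Isom C') where
  toFun := fun g => ⟨σ.symm ≪≫ₗ g.1 ≪≫ₗ σ, fun x y => by
    rw [LinearEquiv.trans_apply, LinearEquiv.trans_apply, LinearEquiv.trans_apply, LinearEquiv.trans_apply, hσ, g.2,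
      ← hσ, LinearEquiv.apply_symm_apply, LinearEquiv.apply_symm_apply]⟩
  invFun := fun g => ⟨σ ≪≫ₗ g.1 ≪≫ₗ σ.symm, fun x y => by
    rw [LinearEquiv.trans_apply, LinearEquiv.trans_apply, LinearEquiv.trans_apply, LinearEquiv.trans_apply, ← hσ,
      LinearEquiv.apply_symm_apply, LinearEquiv.apply_symm_apply, g.2, hσ]⟩
  left_inv := fun g => Subtype.ext (by
    apply LinearEquiv.ext
    intro x
    simp only [LinearEquiv.trans_apply, LinearEquiv.symm_apply_apply])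
  right_inv := fun g => Subtype.ext (by
    apply LinearEquiv.ext
    intro x
    simp only [LinearEquiv.trans_apply, LinearEquiv.apply_symm_apply])
  map_mul' := fun g h => Subtype.ext (by
    apply LinearEquiv.ext
    intro x
    show σ (g.1 (h.1 (σ.symm x))) = σ (g.1 (σ.symm (σ (h.1 (σ.symm x)))))
    rw [LinearEquiv.symm_apply_apply])

variable [Finite F]

/-- **the stabiliser of `{U, U^⊥}`** -/
theorem fszs_stab2 (hF : Fm B ε) (hU : NdOn B U) (h0 : U ≠ ⊥) {t : V ≃ₗ[F] V} (ht : t ∈ Isom B)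
    (htU : U.map (t : V →ₗ[F] V) = perp B U) (h1 : FSZs (Isom (res B U)) (zel U ε)) :
    FSZs (stab2 hF hU) (zel V ε) := by
  obtain ⟨m1, h1⟩ := h1
  have f0 : Finite (V ≃ₗ[F] V) := finite_equiv
  have hc := isCompl_perp hF hU
  let σ : U ≃ₗ[F] perp B U := t.ofSubmodules U (perp B U) htU
  have hσ : ∀ x y : U, B (σ x) (σ y) = B x y := fun x y => ht x y
  have hτ := swap_mem hF hU hσ
  have hτU := swap_map hc σ
  let N : Subgroup ↥(stab2 hF hU) := (stab B U).subgroupOf (stab2 hF hU)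
  let τ : ↥(stab2 hF hU) := ⟨swap hc σ, hτ, Or.inr hτU⟩
  have hmem : ∀ g : ↥(stab2 hF hU), g ∈ N ↔ U.map (g.1 : V →ₗ[F] V) = U := fun g => by
    rw [Subgroup.mem_subgroupOf, mem_stab]
    exact ⟨fun h => h.2, fun h => ⟨g.2.1, h⟩⟩
  have hτN : τ ∉ N := by
    rw [hmem]
    show ¬ U.map (swap hc σ : V →ₗ[F] V) = U
    rw [hτU]
    exact ne_perp hF hU h0
  have hN : N.index = 2 := by
    rw [Subgroup.index_eq_two_iff]
    refine ⟨τ, fun b => ?_⟩
    rw [hmem, hmem]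
    have e : (((b * τ : ↥(stab2 hF hU)) : V ≃ₗ[F] V) : V →ₗ[F] V) =
      ((b : V ≃ₗ[F] V) : V →ₗ[F] V) ∘ₗ (swap hc σ : V →ₗ[F] V) := rfl
    rw [e, Submodule.map_comp, hτU, map_perp b.2.1]
    rcases b.2.2 with h | h
    · right
      rw [h]
      exact ⟨rfl, ne_perp hF hU h0⟩
    · left
      rw [h]
      exact ⟨perp_perp hF hU, ne_perp hF hU h0⟩
  let e : ↥(Isom (res B U)) × ↥(Isom (res B U)) ≃* ↥N :=
    ((MulEquiv.prodCongr (MulEquiv.refl _) (conjIsom (C := res B U) (C' := res B (perp B U)) σ hσ)).trans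
      (glueEquiv hF hU)).trans (Subgroup.subgroupOfEquivOfLe (stab_le hF hU)).symm
  have he : ∀ a b : ↥(Isom (res B U)), (((e (a, b) : ↥N) : ↥(stab2 hF hU)) : V ≃ₗ[F] V) =
      glue hc a.1 (σ.symm ≪≫ₗ b.1 ≪≫ₗ σ) := fun a b => rfl
  have h2 := FSZ.wreath (Γ := ↥(stab2 hF hU)) (z := (⟨zel U ε, m1⟩ : ↥(Isom (res B U))))
    (fun g => Subtype.ext (zel_central ε g.1)) (Subtype.ext (zel_sq ε)) hN e (τ := τ) hτN
    (Subtype.ext (swap_sq hc σ)) (fun a b => by
      rw [mul_inv_eq_iff_eq_mul]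
      exact Subtype.ext (swap_glue hc σ a.1 b.1)) h1
  have e1 : (((e (⟨zel U ε, m1⟩, ⟨zel U ε, m1⟩) : ↥N) : ↥(stab2 hF hU)) : V ≃ₗ[F] V) = zel V ε := by
    rw [he]
    show glue hc (zel U ε) (σ.symm ≪≫ₗ zel U ε ≪≫ₗ σ) = _
    rw [zel_conj, glue_zel]
  have e2 : zel V ε ∈ stab2 hF hU := by
    rw [← e1]
    exact Subtype.coe_prop _
  refine ⟨e2, ?_⟩
  have e3 : ((e (⟨zel U ε, m1⟩, ⟨zel U ε, m1⟩) : ↥N) : ↥(stab2 hF hU)) = ⟨zel V ε, e2⟩ := Subtype.ext e1
  rwa [e3] at h2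

/-- **FR-RED** -/
theorem cov_of_red (hF : Fm B ε) (hI : ∀ m < finrank F V, Hyp.{u} m) {c : V ≃ₗ[F] V} {P : Subgroup (V ≃ₗ[F] V)}
    (hc : c ∈ Isom B) (hP : P ≤ Isom B) (hK : Red B (Subgroup.closure {c} ⊔ P)) : Cov B ε c P := by
  obtain ⟨U, h0, h1, hU, hK⟩ := hK
  have hcK : c ∈ Subgroup.closure {c} ⊔ P := Subgroup.mem_sup_left (Subgroup.subset_closure rfl)
  have hPK : P ≤ Subgroup.closure {c} ⊔ P := le_sup_right
  have i1 : FSZs (Isom (res B U)) (zel U ε) :=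
    hI _ (Submodule.finrank_lt h1) F U (res B U) ε (Fm.res hF hU) rfl
  have i2 : FSZs (Isom (res B (perp B U))) (zel (perp B U) ε) :=
    hI _ (Submodule.finrank_lt (perp_ne_top hF hU h0)) F (perp B U) (res B (perp B U)) ε
      (Fm.res hF (nd_perp hF hU)) rfl
  by_cases hA : ∀ g ∈ Subgroup.closure {c} ⊔ P, U.map (g : V →ₗ[F] V) = U
  · exact ⟨stab B U, fun g hg => hg.1, ⟨hc, hA c hcK⟩, fun g hg => ⟨hP hg, hA g (hPK hg)⟩, fszs_stab hF hU i1 i2⟩
  · push Not at hA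
    obtain ⟨t, ht, htU⟩ := hA
    have hle : Subgroup.closure {c} ⊔ P ≤ Isom B := sup_le ((Subgroup.closure_le _).2 (by simpa using hc)) hP
    exact ⟨stab2 hF hU, fun g hg => hg.1, ⟨hc, hK c hcK⟩, fun g hg => ⟨hP hg, hK g (hPK hg)⟩,
      fszs_stab2 hF hU h0 (hle ht) ((hK t ht).resolve_left htU) i1⟩

end

end Cfsg.Agent.H76.FR
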