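import Cfsg.Agent.H721.FR.Base

/-!
# TEAM SR, second part (S4970): orthogonal decompositions (helper76)

* `isCompl_perp`, `perp_perp`, `nd_perp`, `Fm.res` : a nondegenerate subspace and its orthogonal space;
* `glue hc a b` : the automorphism of `V = U ⊕ U'` with the restrictions `a`, `b`;
* `glueEquiv` : the stabiliser of `U` in `Isom B` is `Isom (res B U) × Isom (res B U')`.
-/

set_option autoImplicit false

universe u

namespace Cfsg.Agent.H76.FR

open Cfsg Cfsg.Agent.H955.FS Cfsg.Agent.H721.SR Cfsg.Agent.H721.FR Module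

variable {F V : Type u} [Field F] [AddCommGroup V] [Module F V]

/-- the restriction of a bilinear form to a subspace -/
noncomputable def res (B : V →ₗ[F] V →ₗ[F] F) (U : Submodule F V) : U →ₗ[F] U →ₗ[F] F := B.domRestrict₁₂ U U

theorem res_apply (B : V →ₗ[F] V →ₗ[F] F) (U : Submodule F V) (x y : U) : res B U x y = B x y := rfl

variable {B : V →ₗ[F] V →ₗ[F] F} {ε : F} {U : Submodule F V}

theorem eps_sq (hF : Fm B ε) : ε * ε = 1 := by
  rcases hF.eps with h | ⟨h, -⟩ <;> rw [h] <;> ring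

theorem symm_zero (hF : Fm B ε) {x y : V} (h : B x y = 0) : B y x = 0 := by
  rw [hF.symm, h, mul_zero]

theorem refl_of (hF : Fm B ε) : LinearMap.BilinForm.IsRefl B := fun _ _ h => symm_zero hF h

theorem perp_eq (B : V →ₗ[F] V →ₗ[F] F) (U : Submodule F V) : perp B U = LinearMap.BilinForm.orthogonal B U := rfl

theorem disjoint_perp (hF : Fm B ε) (hU : NdOn B U) : Disjoint U (perp B U) := by
  rw [Submodule.disjoint_def]
  intro x hx hx'
  exact hU x hx fun y hy => symm_zero hF (hx' y hy)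

theorem isCompl_perp [FiniteDimensional F V] (hF : Fm B ε) (hU : NdOn B U) : IsCompl U (perp B U) := by
  rw [perp_eq]
  exact LinearMap.BilinForm.isCompl_orthogonal_of_restrict_nondegenerate (refl_of hF)
    (LinearMap.BilinForm.nondegenerate_restrict_of_disjoint_orthogonal B (refl_of hF) (disjoint_perp hF hU))

theorem exists_add [FiniteDimensional F V] (hF : Fm B ε) (hU : NdOn B U) (x : V) :
    ∃ (a : U) (b : perp B U), (a : V) + (b : V) = x := by
  have h := (isCompl_perp hF hU).sup_eq_top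
  have hx : x ∈ U ⊔ perp B U := by rw [h]; trivial
  obtain ⟨a, ha, b, hb, rfl⟩ := Submodule.mem_sup.1 hx
  exact ⟨⟨a, ha⟩, ⟨b, hb⟩, rfl⟩

theorem nd_perp [FiniteDimensional F V] (hF : Fm B ε) (hU : NdOn B U) : NdOn B (perp B U) := by
  intro x hx h
  refine hF.nondeg x fun v => ?_
  obtain ⟨a, b, rfl⟩ := exists_add hF hU v
  rw [map_add, h b b.2, add_zero]
  exact symm_zero hF (hx a a.2)

theorem perp_perp [FiniteDimensional F V] (hF : Fm B ε) (hU : NdOn B U) : perp B (perp B U) = U := by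
  apply le_antisymm
  · intro x hx
    obtain ⟨a, b, rfl⟩ := exists_add hF hU x
    have hb : (b : V) = 0 := by
      refine nd_perp hF hU b b.2 fun y hy => ?_
      have h1 : B y ((a : V) + b) = 0 := hx y hy
      rw [map_add, symm_zero hF (hy a a.2), zero_add] at h1
      exact symm_zero hF h1
    rw [hb, add_zero]
    exact a.2
  · intro x hx y hy
    exact symm_zero hF (hy x hx)

theorem Fm.res (hF : Fm B ε) (hU : NdOn B U) : Fm (res B U) ε where
  two := hF.two
  eps := hF.eps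
  symm _ _ := hF.symm _ _
  nondeg x hx := Subtype.ext (hU x x.2 fun y hy => hx ⟨y, hy⟩)

/-- `g` maps `perp U` onto `perp (g U)` -/
theorem map_perp {g : V ≃ₗ[F] V} (hg : g ∈ Isom B) (U : Submodule F V) :
    (perp B U).map (g : V →ₗ[F] V) = perp B (U.map (g : V →ₗ[F] V)) := by
  ext x
  constructor
  · rintro ⟨y, hy, rfl⟩ z ⟨u, hu, rfl⟩
    show B (g u) (g y) = 0
    rw [hg]
    exact hy u hu
  · intro hx
    refine ⟨g.symm x, fun u hu => ?_, LinearEquiv.apply_symm_apply g x⟩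
    have h1 := hx (g u) ⟨u, hu, rfl⟩
    rw [← LinearEquiv.apply_symm_apply g x, hg] at h1
    exact h1

/-! ### gluing -/

section Glue

variable {U U' : Submodule F V} (hc : IsCompl U U')

/-- the automorphism with the given restrictions -/
noncomputable def glue (a : U ≃ₗ[F] U) (b : U' ≃ₗ[F] U') : V ≃ₗ[F] V :=
  (Submodule.prodEquivOfIsCompl U U' hc).symm ≪≫ₗ (a.prodCongr b) ≪≫ₗ Submodule.prodEquivOfIsCompl U U' hc

theorem glue_apply (a : U ≃ₗ[F] U) (b : U' ≃ₗ[F] U') (x : U) (y : U') : glue hc a b ((x : V) + y) = a x + b y := by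
  have h : (Submodule.prodEquivOfIsCompl U U' hc).symm ((x : V) + y) = (x, y) := by
    rw [LinearEquiv.symm_apply_eq, Submodule.coe_prodEquivOfIsCompl']
  rw [glue, LinearEquiv.trans_apply, LinearEquiv.trans_apply, h, LinearEquiv.prodCongr_apply,
    Submodule.coe_prodEquivOfIsCompl']

theorem glue_left (a : U ≃ₗ[F] U) (b : U' ≃ₗ[F] U') (x : U) : glue hc a b x = a x := by
  have := glue_apply hc a b x 0
  simpa using this

theorem glue_right (a : U ≃ₗ[F] U) (b : U' ≃ₗ[F] U') (y : U') : glue hc a b y = b y := by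
  have := glue_apply hc a b 0 y
  simpa using this

include hc in
theorem ext_of {f g : V ≃ₗ[F] V} (h1 : ∀ x : U, f x = g x) (h2 : ∀ x : U', f x = g x) : f = g := by
  apply LinearEquiv.ext
  intro v
  have hv : v ∈ U ⊔ U' := by rw [hc.sup_eq_top]; trivial
  obtain ⟨a, ha, b, hb, rfl⟩ := Submodule.mem_sup.1 hv
  rw [map_add, map_add, h1 ⟨a, ha⟩, h2 ⟨b, hb⟩]

theorem glue_mul (a a' : U ≃ₗ[F] U) (b b' : U' ≃ₗ[F] U') :
    glue hc (a * a') (b * b') = glue hc a b * glue hc a' b' := by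
  apply ext_of hc
  · intro x
    rw [glue_left]
    show ((a (a' x) : U) : V) = glue hc a b (glue hc a' b' x)
    rw [glue_left, glue_left]
  · intro x
    rw [glue_right]
    show ((b (b' x) : U') : V) = glue hc a b (glue hc a' b' x)
    rw [glue_right, glue_right]

theorem glue_one : glue hc (1 : U ≃ₗ[F] U) (1 : U' ≃ₗ[F] U') = 1 := by
  apply ext_of hc
  · intro x
    rw [glue_left]; rfl
  · intro x
    rw [glue_right]; rfl

theorem glue_map_left (a : U ≃ₗ[F] U) (b : U' ≃ₗ[F] U') : U.map (glue hc a b : V →ₗ[F] V) = U := by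
  ext v
  constructor
  · rintro ⟨x, hx, rfl⟩
    show glue hc a b x ∈ U
    rw [glue_left hc a b ⟨x, hx⟩]
    exact (a _).2
  · intro hv
    refine ⟨a.symm ⟨v, hv⟩, (a.symm _).2, ?_⟩
    show glue hc a b (a.symm ⟨v, hv⟩ : U) = v
    rw [glue_left, LinearEquiv.apply_symm_apply]

theorem glue_inj {a a' : U ≃ₗ[F] U} {b b' : U' ≃ₗ[F] U'} (h : glue hc a b = glue hc a' b') : a = a' ∧ b = b' := by
  constructor
  · apply LinearEquiv.ext
    intro x
    apply Subtype.ext
    rw [← glue_left hc a b, ← glue_left hc a' b', h]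
  · apply LinearEquiv.ext
    intro x
    apply Subtype.ext
    rw [← glue_right hc a b, ← glue_right hc a' b', h]

theorem exists_glue {g : V ≃ₗ[F] V} (h1 : U.map (g : V →ₗ[F] V) = U) (h2 : U'.map (g : V →ₗ[F] V) = U') :
    ∃ (a : U ≃ₗ[F] U) (b : U' ≃ₗ[F] U'), glue hc a b = g ∧ (∀ x : U, (a x : V) = g x) ∧ ∀ x : U', (b x : V) = g x := by
  refine ⟨g.ofSubmodules U U h1, g.ofSubmodules U' U' h2, ?_, fun x => rfl, fun x => rfl⟩
  apply ext_of hc
  · intro x
    rw [glue_left]; rfl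
  · intro x
    rw [glue_right]; rfl

theorem glue_zel (ε : F) : glue hc (zel U ε) (zel U' ε) = zel V ε := by
  apply ext_of hc
  · intro x
    rw [glue_left]
    unfold zel
    split_ifs <;> rfl
  · intro x
    rw [glue_right]
    unfold zel
    split_ifs <;> rfl

end Glue

/-! ### the stabiliser of a nondegenerate subspace -/

/-- the stabiliser of `U` in `Isom B` -/
def stab (B : V →ₗ[F] V →ₗ[F] F) (U : Submodule F V) : Subgroup (V ≃ₗ[F] V) where
  carrier := {g | g ∈ Isom B ∧ U.map (g : V →ₗ[F] V) = U}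
  mul_mem' := fun {a b} ha hb => ⟨mul_mem ha.1 hb.1, by
    have e : ((a * b : V ≃ₗ[F] V) : V →ₗ[F] V) = (a : V →ₗ[F] V) ∘ₗ (b : V →ₗ[F] V) := rfl
    rw [e, Submodule.map_comp, hb.2, ha.2]⟩
  one_mem' := ⟨one_mem _, by
    have e : ((1 : V ≃ₗ[F] V) : V →ₗ[F] V) = LinearMap.id := rfl
    rw [e, Submodule.map_id]⟩
  inv_mem' := fun {a} ha => ⟨inv_mem ha.1, by
    have e : ((a⁻¹ : V ≃ₗ[F] V) : V →ₗ[F] V) ∘ₗ (a : V →ₗ[F] V) = LinearMap.id := by
      ext x
      exact LinearEquiv.symm_apply_apply a x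
    conv_lhs => rw [← ha.2]
    rw [← Submodule.map_comp, e, Submodule.map_id]⟩

theorem mem_stab {g : V ≃ₗ[F] V} : g ∈ stab B U ↔ g ∈ Isom B ∧ U.map (g : V →ₗ[F] V) = U := Iff.rfl

variable [FiniteDimensional F V]

theorem glue_mem (hF : Fm B ε) (hU : NdOn B U) {a : U ≃ₗ[F] U} {b : perp B U ≃ₗ[F] perp B U} (ha : a ∈ Isom (res B U))
    (hb : b ∈ Isom (res B (perp B U))) : glue (isCompl_perp hF hU) a b ∈ Isom B := by
  intro x y
  obtain ⟨x1, x2, rfl⟩ := exists_add hF hU x
  obtain ⟨y1, y2, rfl⟩ := exists_add hF hU y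
  rw [glue_apply, glue_apply]
  simp only [map_add, LinearMap.add_apply]
  have e1 : B (a x1) (a y1) = B x1 y1 := ha x1 y1
  have e2 : B (b x2) (b y2) = B x2 y2 := hb x2 y2
  have e3 : B (a x1) (b y2) = 0 := (b y2).2 _ (a x1).2
  have e4 : B (b x2) (a y1) = 0 := symm_zero hF ((b x2).2 _ (a y1).2)
  have e5 : B x1 y2 = 0 := y2.2 _ x1.2
  have e6 : B x2 y1 = 0 := symm_zero hF (x2.2 _ y1.2)
  rw [e1, e2, e3, e4, e5, e6]

/-- the homomorphism to the stabiliser of `U` -/
noncomputable def glueHom (hF : Fm B ε) (hU : NdOn B U) :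
    ↥(Isom (res B U)) × ↥(Isom (res B (perp B U))) →* ↥(stab B U) where
  toFun := fun x => ⟨glue (isCompl_perp hF hU) x.1.1 x.2.1, glue_mem hF hU x.1.2 x.2.2, glue_map_left _ _ _⟩
  map_one' := Subtype.ext (glue_one _)
  map_mul' := fun _ _ => Subtype.ext (glue_mul _ _ _ _ _)

theorem glueHom_bijective (hF : Fm B ε) (hU : NdOn B U) : Function.Bijective (glueHom hF hU) := by
  constructor
  · intro x y h
    have h1 := glue_inj (isCompl_perp hF hU) (congrArg Subtype.val h)
    exact Prod.ext (Subtype.ext h1.1) (Subtype.ext h1.2)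
  · rintro ⟨g, hg, hgU⟩
    have h2 : (perp B U).map (g : V →ₗ[F] V) = perp B U := by rw [map_perp hg, hgU]
    obtain ⟨a, b, hab, ha, hb⟩ := exists_glue (isCompl_perp hF hU) hgU h2
    refine ⟨⟨⟨a, fun x y => ?_⟩, ⟨b, fun x y => ?_⟩⟩, Subtype.ext hab⟩
    · show B (a x) (a y) = B x y
      rw [ha, ha, hg]
    · show B (b x) (b y) = B x y
      rw [hb, hb, hg]

/-- the stabiliser of `U` is the product of the isometry groups -/
noncomputable def glueEquiv (hF : Fm B ε) (hU : NdOn B U) :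
    ↥(Isom (res B U)) × ↥(Isom (res B (perp B U))) ≃* ↥(stab B U) :=
  MulEquiv.ofBijective (glueHom hF hU) (glueHom_bijective hF hU)

theorem glueEquiv_coe (hF : Fm B ε) (hU : NdOn B U) (a : ↥(Isom (res B U))) (b : ↥(Isom (res B (perp B U)))) :
    ((glueEquiv hF hU (a, b) : ↥(stab B U)) : V ≃ₗ[F] V) = glue (isCompl_perp hF hU) a.1 b.1 := rfl

end Cfsg.Agent.H76.FR
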